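import Cfsg.Agent.H3.FixCount
import Cfsg.Agent.H3.Mu.Tits.Core

/-! Two small subgroups of the Tits group. -/

set_option autoImplicit false
set_option maxRecDepth 100000

open Cfsg.Agent.L0

namespace Cfsg.Agent.H3.Tits

def Wd : List (List ℕ) := [[0],
  [1],
  [2],
  [3],
  [4],
  [5],
  [6],
  [7],
  [8],
  [9],
  [10],
  [11],
  [12],
  [3, 2],
  [0, 1, 2, 0, 3, 1, 3, 1, 0, 4, 4, 0, 1, 2, 0, 3, 1, 3, 1, 0, 4, 4, 3, 2, 0, 1, 2, 0, 3, 1, 3, 1, 0, 4, 4],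
  [0, 1, 2, 0, 3, 1, 3, 1, 0, 4, 4],
  [3, 1, 3, 2, 1, 3, 1, 3, 0, 1, 2, 0, 3, 1, 3, 1, 0, 4, 4, 3, 1, 3, 1, 2, 3, 1, 3],
  [7, 3, 1, 3, 7, 3, 1, 3, 0, 1, 2, 0, 3, 1, 3, 1, 0, 4, 4, 3, 1, 3, 6, 3, 1, 3, 6]]

def EV : List (List ℕ) := [[13],
  [14],
  [13, 13],
  [13, 14],
  [14, 14],
  [13, 13, 13],
  [13, 13, 14],
  [13, 14, 14],
  [14, 14, 14],
  [13, 13, 13, 13],
  [13, 13, 13, 14],
  [13, 13, 14, 14],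
  [13, 14, 14, 14],
  [14, 14, 14, 14],
  [13, 13, 13, 13, 14],
  [13, 13, 13, 14, 14],
  [13, 13, 14, 14, 14],
  [13, 14, 14, 14, 14],
  [13, 13, 13, 13, 14, 14],
  [13, 13, 13, 14, 14, 14],
  [13, 13, 14, 14, 14, 14],
  [13, 13, 13, 13, 14, 14, 14],
  [13, 13, 13, 14, 14, 14, 14],
  [13, 13, 13, 13, 14, 14, 14, 14]]

def CV : List (List ℕ) := [[],
  [0, 1, 2, 0, 3, 1, 3, 1, 0, 4, 4],
  [6, 6, 3, 11],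
  [0, 1, 2, 3, 1, 3, 1, 4, 8, 0, 4],
  [0, 1, 3, 9, 3, 1, 3, 1, 9, 0, 5],
  [12, 3, 6, 6],
  [0, 1, 2, 5, 3, 1, 3, 10],
  [0, 1, 2, 3, 1, 3, 1, 3, 5, 10, 12],
  [0, 1, 6, 4, 3, 1, 3, 1, 10, 0, 11],
  [2],
  [0, 1, 2, 3, 1, 3, 2, 5, 11, 1, 0],
  [0, 1, 2, 3, 1, 3, 1, 2, 0, 6, 8],
  [0, 1, 6, 3, 1, 0, 4],
  [0, 1, 10, 3, 1, 6, 3, 1, 8, 11, 0],
  [0, 1, 6, 4, 3, 1, 3, 1, 3, 7, 8],
  [0, 1, 2, 0, 3, 1, 3, 1, 10, 0, 7],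
  [0, 1, 2, 0, 3, 1, 3, 1, 4, 2, 0],
  [0, 1, 6, 4, 3, 1, 3, 1, 3, 9, 7],
  [0, 3, 1, 6, 3, 1, 0, 4],
  [0, 1, 2, 3, 1, 3, 1, 2, 0, 9, 6],
  [0, 1, 0, 10, 3, 1, 3, 1, 8, 0, 4],
  [0, 1, 2, 3, 1, 3, 1, 2, 7, 3, 6],
  [7, 3, 1, 3, 1, 3, 6],
  [0, 1, 2, 3, 1, 3, 1, 8, 11, 0, 12]]

def MV : List (List ℕ) := [[1, 2],
  [3, 4],
  [4, 5],
  [6, 7],
  [7, 8],
  [8, 9],
  [10, 11],
  [11, 12],
  [12, 13],
  [13, 14],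
  [0, 15],
  [15, 16],
  [16, 17],
  [17, 18],
  [18, 0],
  [2, 19],
  [19, 20],
  [20, 21],
  [21, 1],
  [5, 22],
  [22, 23],
  [23, 3],
  [9, 24],
  [24, 6],
  [14, 10]]

def ES : List (List ℕ) := [[16],
  [17],
  [16, 16],
  [16, 17],
  [17, 16],
  [17, 17],
  [16, 16, 17],
  [16, 17, 16],
  [16, 17, 17],
  [17, 16, 16],
  [17, 16, 17],
  [17, 17, 16],
  [16, 16, 17, 16],
  [16, 16, 17, 17],
  [16, 17, 16, 16],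
  [16, 17, 16, 17],
  [16, 17, 17, 16],
  [17, 16, 17, 17],
  [17, 17, 16, 17],
  [16, 16, 17, 16, 16],
  [16, 16, 17, 16, 17],
  [16, 16, 17, 17, 16],
  [16, 17, 16, 17, 17],
  [16, 17, 17, 16, 17],
  [16, 16, 17, 16, 17, 17],
  [16, 16, 17, 17, 16, 17]]

def CS : List (List ℕ) := [[3, 1, 3, 1, 2, 3, 1, 3],
  [3, 1, 3, 6, 3, 1, 3, 6],
  [2, 3, 12, 1, 3, 4, 1, 12, 3],
  [4, 1, 3, 1, 3, 1, 3, 1, 10, 3],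
  [3, 1, 9, 7, 3, 5, 1, 3, 11],
  [7, 3, 1, 3, 7, 3, 1, 3],
  [1, 3, 1, 3, 1, 3, 8, 3, 4],
  [5, 3, 1, 12, 3, 1, 2, 3, 2],
  [1, 3, 1, 9, 3, 1, 3, 1, 12],
  [1, 3, 1, 7, 3, 11, 1, 3, 12],
  [2, 10, 3, 12, 1, 3, 1, 2, 3],
  [3, 1, 6, 3, 4, 1, 3, 12, 9],
  [2, 5, 3, 1, 8, 3, 1, 3, 1],
  [3, 1, 8, 3, 1, 2, 3, 10, 7],
  [0, 11, 0, 3, 1, 3, 1, 3, 12],
  [0, 1, 3, 1, 5, 9, 3, 1, 0, 9],
  [3, 1, 4, 6, 3, 1, 9, 3, 12],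
  [3, 1, 3, 11, 3, 1, 4, 3, 2],
  [0, 5, 1, 3, 1, 3, 11, 1, 11, 0],
  [3, 1, 8, 3, 5, 1, 3, 9, 3],
  [10, 3, 1, 3, 11, 3, 1, 3, 11],
  [3, 1, 3, 6, 3, 1, 3, 11, 10],
  [0, 1, 3, 1, 6, 6, 3, 1, 0],
  [3, 11, 1, 5, 3, 1, 11, 3, 2],
  [1, 8],
  []]

def MS : List (List ℕ) := [[1, 2],
  [3, 4],
  [5, 6],
  [0, 7],
  [8, 9],
  [10, 11],
  [12, 0],
  [13, 14],
  [15, 16],
  [17, 1],
  [2, 17],
  [14, 18],
  [16, 19],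
  [20, 21],
  [22, 3],
  [4, 22],
  [6, 23],
  [21, 24],
  [23, 5],
  [24, 20],
  [7, 12],
  [9, 25],
  [11, 26],
  [25, 8],
  [26, 10],
  [18, 13],
  [19, 15]]

theorem small {G : Type*} [Group G] (hm : Model G 1755 4 T Bf) : Finite G ∧
    Nat.card G = 17971200 ∧ ∃ (V S : Subgroup G) (x y : G), Nat.card V = 25 ∧ Nat.card S = 27 ∧
      (∀ g ∈ V, g ≠ 1 → IsConj x g) ∧ (∀ g ∈ S, g ≠ 1 → IsConj y g) ∧ x ∈ V ∧ x ≠ 1 ∧ y ≠ 1 ∧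
      y * y * y = 1 ∧ y * y * x * y ∈ V := by
  obtain ⟨A, g, h⟩ := core' hm
  haveI := h.fin
  have hW : lettersB 13 Wd = true := by decide +kernel
  obtain ⟨a1, a2⟩ := sub_of_words h.tab h.base hW (E := EV) (C := CV) (ls := [13, 14]) (w := [13])
    (m := fun i l => (MV.getD i []).getD (l - 13) 0) (b := 0) (by norm_num) (by decide +kernel)
    (by decide +kernel) (by decide +kernel) (by decide +kernel)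
  obtain ⟨b1, b2⟩ := sub_of_words h.tab h.base hW (E := ES) (C := CS) (ls := [16, 17]) (w := [15])
    (m := fun i l => (MS.getD i []).getD (l - 16) 0) (b := 0) (by norm_num) (by decide +kernel)
    (by decide +kernel) (by decide +kernel) (by decide +kernel)
  have r := h.base.ev_eq_derive h.tab hW (S := [([15, 15, 15], []), ([15, 15, 13, 15], [14])])
    (by decide +kernel)
  have ne : ∀ l : ℕ, tr (dT T Wd) [l] 0 ≠ 0 → ev (dG g Wd) [l] ≠ 1 := fun l hl h1 => hl (by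
    rw [← h.tab.act_ev_derive hW _ (by norm_num), h1, A.one (by norm_num)])
  refine ⟨h.fin, h.card, _, _, _, _, a1, b1, a2, b2, ?_, ne 13 (by decide +kernel),
    ne 15 (by decide +kernel), ?_, ?_⟩
  · rw [ev_singleton]; exact mem_genL _ (by simp)
  · simpa [mul_assoc] using r ([15, 15, 15], []) (by simp)
  · have := r ([15, 15, 13, 15], [14]) (by simp)
    simp only [ev_cons, ev_nil, mul_one] at this ⊢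
    rw [mul_assoc, mul_assoc, this]
    exact mem_genL _ (by simp)

end Cfsg.Agent.H3.Tits
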